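import Cfsg.Agent.H541.JM.F13Data
import Cfsg.Agent.H860.JM.Defs
import Cfsg.Agent.H858.VK

/-!
# (F13) the point of a 2B element `w` of `N(P)` meets the point `P`
-/

set_option autoImplicit false

namespace Cfsg.Agent.H541.JM.F13

open Cfsg Cfsg.Agent.Lib Cfsg.Agent.Lib.F2MatGroup Cfsg.Agent.J4.Rep112 Cfsg.Agent.J4.Lower
open Cfsg.Agent.J4.LowerData Cfsg.Agent.J4.GroupLemmas Cfsg.Agent.J4.Beta
open Cfsg.Agent.J4.ClassesData Cfsg.Agent.J4.M24Hom Cfsg.Agent.J4.ClassesAbs Cfsg.Agent.J4.Classes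
open Cfsg.Agent.J4.M24InvolData Cfsg.Agent.SporadicStructure.M24El
open Cfsg.Agent.H541.JM.F13Data Cfsg.Agent.H860.JM
open Cfsg.Agent.J4.Invol (EJ s d)

/-! ### The abstract argument -/

section Abs

variable {G : Type*} [Group G] {L l : List G}

theorem abs_repA (hl : l.length = 11) (hL : ∀ k < 11, getG L (42 + k) = l.getD k 1)
    {R : Subgroup G} (hR : ∀ g ∈ L, g ∈ R)
    {E : List (List ℕ × List ℕ)} (hE : ∀ p ∈ E, evG L p.1 = evG L p.2)
    (hZ : getG L 52 = beta l 1024)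
    {im v : ℕ} {r : ℕ × ℕ × ℕ × ℕ × List ℕ × List ℕ × ℕ}
    (h : (Nat.beq r.2.2.2.2.2.2 52 && repOk E im v r) = true) :
    GoodF l R (beta l v * getG L im) := by
  unfold repOk at h
  rw [Bool.and_eq_true, Bool.and_eq_true, Bool.and_eq_true, Bool.and_eq_true, List.contains_iff_mem,
    List.contains_iff_mem, List.contains_iff_mem, Nat.beq_eq] at h
  obtain ⟨h0, ⟨⟨h1, h2⟩, h3⟩, -⟩ := h
  have e1 := hE _ h1
  have e2 := hE _ h2
  have e3 := hE _ h3
  simp only [evG_append, evG_single, abs_bw hl hL] at e1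
  simp only [evG_append, evG_single, evG_cons, evG_nil, mul_one] at e2
  simp only [evG_append, evG_nil] at e3
  rw [← e1]
  have hu : getG L r.2.2.1 ∈ R := getG_mem R hR _
  have hp : getG L r.2.2.2.1 ∈ R := getG_mem R hR _
  have hw : evG L r.2.2.2.2.2.1 ∈ R := evG_mem R hR _
  have hw' : evG L r.2.2.2.2.1 = (evG L r.2.2.2.2.2.1)⁻¹ := eq_inv_of_mul_eq_one_left e3
  rw [hw', h0, hZ] at e2
  generalize getG L r.2.2.1 = u at *
  generalize getG L r.2.2.2.1 = p at *
  generalize evG L r.2.2.2.2.2.1 = w at *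
  refine Or.inl ⟨w * p⁻¹, R.mul_mem hw (R.inv_mem hp), ?_⟩
  have : w * p⁻¹ * u * (w * p⁻¹)⁻¹ = w * p⁻¹ * (u * p) * w⁻¹ := by group
  rw [this, e2]; group

variable {R : Subgroup G} {phi : M24 →* G}

/-- the elements `β(v) m` with `m` an involution of M24 -/
theorem pred_mul (h : Hyp R l phi) (Pr : G → Prop)
    (hQ : ∀ r u, Pr (beta l r * u * (beta l r)⁻¹) → Pr u) {m : G} {A : List ℕ}
    (hact : ∀ v, m * beta l v * m⁻¹ = beta l (lin A v)) (hA : ∀ v < 2048, lin A v < 2048)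
    {T : List (ℕ × ℕ × ℕ)} {vs : List ℕ} (hfix : fixOk A T vs = true)
    (hreps : ∀ v ∈ vs, Pr (beta l v * m)) (hmm : m * m = 1) (v : ℕ) (hv : v < 2048)
    (hsq : (beta l v * m) * (beta l v * m) = 1) : Pr (beta l v * m) := by
  have h1 : beta l v * beta l (lin A v) = 1 := by
    rw [← hact]
    have : beta l v * (m * beta l v * m⁻¹) = (beta l v * m) * (beta l v * m) * (m * m)⁻¹ := by
      group
    rw [this, hsq, hmm]; group
  have h2 : beta l v = beta l (lin A v) := by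
    have h3 := beta_sq l h.sq h.comm v
    exact mul_left_cancel (h3.trans h1.symm)
  have h4 : v = lin A v := by
    refine beta_inj h.sq h.comm h.ind ?_ ?_ h2
    · rw [h.len]; exact hv
    · rw [h.len]; exact hA v hv
  obtain ⟨vj, hvj, r, hr⟩ := fixOk_sound hfix hv h4.symm
  apply hQ r
  have h5 : beta l r * (beta l v * m) * (beta l r)⁻¹ = beta l vj * m := by
    have hi : (beta l r)⁻¹ = beta l r := inv_eq_of_mul_eq_one_left (beta_sq l h.sq h.comm r)
    rw [hr, beta_xor l h.sq h.comm, beta_xor l h.sq h.comm, ← hact]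
    have hc : beta l vj * beta l r = beta l r * beta l vj := by
      rw [← beta_xor l h.sq h.comm, Nat.xor_comm, beta_xor l h.sq h.comm]
    rw [hc]
    have e : beta l r * (beta l r * beta l vj * (m * beta l r * m⁻¹) * m) * (beta l r)⁻¹ =
        beta l r * beta l r * beta l vj * m := by group
    rw [e, beta_sq l h.sq h.comm, one_mul]
  rw [h5]
  exact hreps vj hvj

/-- a predicate invariant under conjugation by `Q : M24` which holds for the representatives holds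
for all involutions `β(v) μ`, `μ ≠ 1` -/
theorem pred_invol [Finite G] (h : Hyp R l phi) (Pr : G → Prop)
    (hQ : ∀ r u, Pr (beta l r * u * (beta l r)⁻¹) → Pr u)
    (hM : ∀ ν u, Pr (phi ν * u * (phi ν)⁻¹) → Pr u)
    (reps1 : ∀ v ∈ [0, 34, 517, 551, 1047, 1077, 1554, 1584], Pr (beta l v * phi (el P1)))
    (reps2 : ∀ v ∈ [0, 5], Pr (beta l v * phi XM))
    (v : ℕ) (hv : v < 2048) (μ : M24) (hμ1 : μ ≠ 1)
    (hkk : beta l v * phi μ * (beta l v * phi μ) = 1) : Pr (beta l v * phi μ) := by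
  have hsimple : IsSimpleGroup M24 := Cfsg.Agent.S0365.result
  have hnot : ¬ IsPGroup 2 M24 := Cfsg.Agent.J4.LowerBound.not_two_group_M24
  have hq : beta l v ∈ Subgroup.closure {q | q ∈ l} :=
    beta_mem _ l (fun a ha => Subgroup.subset_closure ha) v
  have hQ2 := (two_group l h.sq h.comm h.ind).1
  have hconjQ : ∀ ν : M24, ∀ q ∈ Subgroup.closure {q | q ∈ l},
      phi ν * q * (phi ν)⁻¹ ∈ Subgroup.closure {q | q ∈ l} := fun ν q hq =>
    (Subgroup.mem_normalizer_iff.mp (h.norm ⟨ν, rfl⟩) q).mp hq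
  have hμ : μ * μ = 1 := by
    apply eq_one_of_mem _ hQ2 phi h.inj hnot h.norm
    have e : phi (μ * μ) = (phi μ * beta l v * (phi μ)⁻¹)⁻¹ * (beta l v)⁻¹ := by
      rw [map_mul]
      have : beta l v * phi μ * (beta l v * phi μ) =
        beta l v * (phi μ * beta l v * (phi μ)⁻¹) * (phi μ * phi μ) := by group
      rw [this] at hkk
      rw [← mul_inv_rev]
      exact eq_inv_of_mul_eq_one_right hkk
    rw [e]
    exact Subgroup.mul_mem _ (Subgroup.inv_mem _ (hconjQ μ _ hq)) (Subgroup.inv_mem _ hq)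
  obtain ⟨ν, hν⟩ := Cfsg.Agent.J4.M24Invol.invol_conj μ hμ hμ1
  obtain ⟨w, hw, hw'⟩ := exists_beta h.sq h.comm (hconjQ ν _ hq)
  rw [h.len] at hw
  have key : ∀ m : M24, ν * μ * ν⁻¹ = m →
      phi ν * (beta l v * phi μ) * (phi ν)⁻¹ = beta l w * phi m := by
    rintro m rfl
    rw [← hw', map_mul, map_mul, map_inv]; group
  have hsq' : ∀ m : M24, ν * μ * ν⁻¹ = m → beta l w * phi m * (beta l w * phi m) = 1 := by
    intro m hm
    rw [← key m hm]
    have : phi ν * (beta l v * phi μ) * (phi ν)⁻¹ * (phi ν * (beta l v * phi μ) * (phi ν)⁻¹) =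
        phi ν * (beta l v * phi μ * (beta l v * phi μ)) * (phi ν)⁻¹ := by group
    rw [this, hkk]; group
  have hmm : ∀ m : M24, ν * μ * ν⁻¹ = m → phi m * phi m = 1 := by
    rintro m rfl
    rw [← map_mul]
    have : ν * μ * ν⁻¹ * (ν * μ * ν⁻¹) = ν * (μ * μ) * ν⁻¹ := by group
    rw [this, hμ, mul_one, mul_inv_cancel, map_one]
  rcases hν with hν | hν
  · apply hM ν
    rw [key _ hν]
    exact pred_mul h Pr hQ h.act1 (by decide +kernel) fix1_ok reps1 (hmm _ hν) w hw (hsq' _ hν)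
  · have hX : el P2 = XM := by
      apply Subtype.ext
      rw [coe_el Cfsg.Agent.J4.M24Invol.ok_P2]
      ext1 p
      rw [Cfsg.Agent.SporadicA.GolayPerm.permOf_apply]
      revert p
      decide +kernel
    rw [hX] at hν
    apply hM ν
    rw [key _ hν]
    exact pred_mul h Pr hQ h.actX (by decide +kernel) fix2_ok reps2 (hmm _ hν) w hw (hsq' _ hν)

end Abs

/-! ### The representatives -/

theorem repsF1 : ∀ v ∈ [0, 34, 517, 551, 1047, 1077, 1554, 1584],
    GoodF qs rho.range (beta qs v * psi (el P1)) := by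
  intro v hv
  rw [List.mem_cons] at hv
  rw [← getG_41]
  rcases hv with rfl | hv
  · have h := repsAok1
    rw [List.all_eq_true] at h
    have h1 := h 0 (List.mem_singleton.2 rfl)
    rw [List.any_eq_true] at h1
    obtain ⟨r, -, hr⟩ := h1
    exact abs_repA (L := LC) qs_length getG_LC LC_mem eqC getG_52 hr
  · have h := repsFok1
    rw [List.all_eq_true] at h
    have h1 := h v hv
    rw [List.any_eq_true] at h1
    obtain ⟨r, -, hr⟩ := h1
    exact abs_repF (L := LC) qs_length getG_LC qs_sq qs_comm qs_props.2 LC_mem eqC eqF getG_40 hr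

theorem repsF2 : ∀ v ∈ [0, 5], GoodF qs rho.range (beta qs v * psi XM) := by
  intro v hv
  rw [List.mem_cons] at hv
  rw [psi_X, ← getX]
  rcases hv with rfl | hv
  · have h := repsFok2
    rw [List.all_eq_true] at h
    have h1 := h 0 (List.mem_singleton.2 rfl)
    rw [List.any_eq_true] at h1
    obtain ⟨r, -, hr⟩ := h1
    exact abs_repF (L := LC) qs_length getG_LC qs_sq qs_comm qs_props.2 LC_mem eqC eqF getG_40 hr
  · have h := repsAok2
    rw [List.all_eq_true] at h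
    have h1 := h v hv
    rw [List.any_eq_true] at h1
    obtain ⟨r, -, hr⟩ := h1
    exact abs_repA (L := LC) qs_length getG_LC LC_mem eqC getG_52 hr

theorem goodF_invol (v : ℕ) (hv : v < 2048) (μ : M24) (hμ1 : μ ≠ 1)
    (hkk : beta qs v * psi μ * (beta qs v * psi μ) = 1) :
    GoodF qs rho.range (beta qs v * psi μ) := by
  refine pred_invol hyp (GoodF qs rho.range) ?_ ?_ repsF1 repsF2 v hv μ hμ1 hkk
  · intro r u h
    refine goodF_of_conj (beta_mem _ qs qs_mem r) (Subgroup.le_normalizer ?_) h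
    exact beta_mem _ qs (fun a ha => Subgroup.subset_closure ha) r
  · intro ν u h
    exact goodF_of_conj (psi_le ⟨ν, rfl⟩) (psi_norm ⟨ν, rfl⟩) h

/-! ### In the group `J4` -/

local notation "𝒢" => Cfsg.Spor.J4

/-- an involution of `N(EJ)` outside `EJ` is conjugate to `s`, or to `d` by an element `g` with
`EJ ⊓ g⁻¹ EJ g ≠ 1` -/
theorem main (w : 𝒢) (hw : w ∈ Subgroup.normalizer (EJ : Set 𝒢)) (hww : w * w = 1) (hw1 : w ∉ EJ) :
    (∃ g, g * w * g⁻¹ = s) ∨ ∃ g, g * w * g⁻¹ = d ∧ ∃ z ∈ EJ, z ≠ 1 ∧ g * z * g⁻¹ ∈ EJ := by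
  have inj := Cfsg.Agent.H858.VK.rho_injective
  have hfin := Cfsg.Agent.H858.VK.finite_J4
  -- conjugate into `B` in `N(EJ)`
  set N : Subgroup 𝒢 := Subgroup.normalizer (EJ : Set 𝒢) with hN
  set B := Cfsg.Agent.H858.FixJ4.B with hB
  have hodd : ¬ 2 ∣ (B.subgroupOf N).index := by
    intro h
    have h1 : (B.subgroupOf N).index ∣ B.index := by
      have h2 : B ≤ N := by
        intro x hx
        obtain ⟨e, he, k, rfl⟩ := Cfsg.Agent.H858.VK.mem_B.1 hx
        exact N.mul_mem (Subgroup.le_normalizer he) (Cfsg.Agent.H858.VK.phi_norm ⟨k, rfl⟩)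
      exact Subgroup.relIndex_dvd_index_of_le h2
    have h3 := h.trans h1
    rw [Cfsg.Agent.H858.FixJ4.index_B] at h3
    norm_num at h3
  obtain ⟨n, hn⟩ := exists_conj_mem (B.subgroupOf N) hodd ⟨w, hw⟩ (Subtype.ext hww)
  have hn' : (n : 𝒢)⁻¹ * w * n ∈ B := hn
  obtain ⟨e, he, k, hek⟩ := Cfsg.Agent.H858.VK.mem_B.1 hn'
  have hk : k ≠ 1 := by
    rintro rfl
    apply hw1
    rw [map_one, mul_one] at hek
    have h1 : w = (n : 𝒢) * e * (n : 𝒢)⁻¹ := by rw [← hek]; group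
    rw [h1]
    exact (Subgroup.mem_normalizer_iff.1 n.2 e).1 he
  obtain ⟨v, hv, hev⟩ := exists_beta hyp.sq hyp.comm ((Cfsg.Agent.J4.Invol.mem_EJ_iff inj e).1 he)
  rw [qs_length] at hv
  have hr : rho ((n : 𝒢)⁻¹ * w * n) = beta qs v * psi k := by
    rw [hek, map_mul, hev]; rfl
  have hsq : beta qs v * psi k * (beta qs v * psi k) = 1 := by
    rw [← hr, ← map_mul]
    have : (n : 𝒢)⁻¹ * w * n * ((n : 𝒢)⁻¹ * w * n) = (n : 𝒢)⁻¹ * (w * w) * n := by group
    rw [this, hww, mul_one, inv_mul_cancel, map_one]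
  have hQEJ : ∀ z, z ∈ Subgroup.closure {q | q ∈ qs} → ∃ z' ∈ EJ, rho z' = z := by
    intro z hz
    have h1 : z ∈ EJ.map rho := by rw [Cfsg.Agent.J4.Invol.map_EJ]; exact hz
    obtain ⟨z', h2, h3⟩ := h1
    exact ⟨z', h2, h3⟩
  rcases goodF_invol v hv k hk hsq with ⟨_, ⟨g, rfl⟩, h1⟩ | ⟨_, ⟨g, rfl⟩, h1, z, hz, hz1, h2⟩
  · left
    refine ⟨g * (n : 𝒢)⁻¹, inj ?_⟩
    rw [← hr, ← map_inv, ← map_mul, ← map_mul, ← Cfsg.Agent.J4.Invol.rho_s] at h1
    rw [← h1]
    congr 1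
    group
  · right
    obtain ⟨z', hz', rfl⟩ := hQEJ z hz
    refine ⟨g * (n : 𝒢)⁻¹, inj ?_, (n : 𝒢) * z' * (n : 𝒢)⁻¹,
      (Subgroup.mem_normalizer_iff.1 n.2 z').1 hz', ?_, ?_⟩
    · rw [← hr, ← map_inv, ← map_mul, ← map_mul, ← Cfsg.Agent.J4.Invol.rho_d] at h1
      rw [← h1]
      congr 1
      group
    · intro h3
      apply hz1
      have : z' = (n : 𝒢)⁻¹ * ((n : 𝒢) * z' * (n : 𝒢)⁻¹) * n := by group
      rw [this, h3, mul_one, inv_mul_cancel, map_one]
    · have e1 : g * (n : 𝒢)⁻¹ * ((n : 𝒢) * z' * (n : 𝒢)⁻¹) * (g * (n : 𝒢)⁻¹)⁻¹ = g * z' * g⁻¹ := by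
        group
      rw [e1, Cfsg.Agent.J4.Invol.mem_EJ_iff inj, map_mul, map_mul, map_inv]
      exact h2

/-- a member of `cj g H` -/
theorem mem_cj {G : Type*} [Group G] {g x : G} {H : Subgroup G} : x ∈ cj g H ↔ g⁻¹ * x * g ∈ H := by
  constructor
  · rintro ⟨y, hy, rfl⟩
    show g⁻¹ * (g * y * g⁻¹) * g ∈ H
    have : g⁻¹ * (g * y * g⁻¹) * g = y := by group
    rwa [this]
  · intro h
    refine ⟨_, h, ?_⟩
    show g * (g⁻¹ * x * g) * g⁻¹ = x
    group

/-- **(F13)** -/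
theorem f13 (h4 : F4 geo) : F13 geo := by
  rintro P P' w ⟨g, rfl⟩ hP' hwn hB hwP'
  have inj := Cfsg.Agent.H858.VK.rho_injective
  have hww : w * w = 1 ∧ w ≠ 1 := by
    obtain ⟨c, hc⟩ := isConj_iff.1 (show IsConj d w from hB)
    have hd := Cfsg.Agent.J4.Invol.EJ_sq inj d (Cfsg.Agent.J4.Invol.d_mem inj)
    constructor
    · rw [← hc]
      have : c * d * c⁻¹ * (c * d * c⁻¹) = c * (d * d) * c⁻¹ := by group
      rw [this, hd]; group
    · intro h0
      have h1 : d = 1 := by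
        calc d = c⁻¹ * (c * d * c⁻¹) * c := by group
          _ = 1 := by rw [hc, h0]; group
      have h2 : beta qs 5 = beta qs 0 := by
        rw [← Cfsg.Agent.J4.Invol.rho_d, h1, map_one, beta_zero]
      have h3 : (5 : ℕ) = 0 := beta_inj hyp.sq hyp.comm hyp.ind (by rw [hyp.len]; norm_num)
        (by rw [hyp.len]; norm_num) h2
      omega
  -- transport to `EJ`
  set u : 𝒢 := g⁻¹ * w * g with hu
  by_cases huE : u ∈ EJ
  · intro h0
    have h1 : w ∈ cj g EJ ⊓ P' := ⟨mem_cj.2 huE, hwP'⟩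
    rw [h0, Subgroup.mem_bot] at h1
    exact hww.2 h1
  · have hun : u ∈ Subgroup.normalizer (EJ : Set 𝒢) := by
      rw [Subgroup.mem_normalizer_iff]
      intro x
      have h1 := Subgroup.mem_normalizer_iff.1 hwn (g * x * g⁻¹)
      rw [mem_cj, mem_cj] at h1
      have e1 : g⁻¹ * (g * x * g⁻¹) * g = x := by group
      have e2 : g⁻¹ * (w * (g * x * g⁻¹) * w⁻¹) * g = u * x * u⁻¹ := by rw [hu]; group
      rwa [e1, e2] at h1
    have huu : u * u = 1 := by
      have : u * u = g⁻¹ * (w * w) * g := by rw [hu]; group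
      rw [this, hww.1, mul_one, inv_mul_cancel]
    rcases main u hun huu huE with ⟨c, hc⟩ | ⟨c, hc, z, hz, hz1, hz2⟩
    · exfalso
      apply Cfsg.Agent.J4.Invol.not_isConj_s_d
      have h1 : IsConj u s := isConj_iff.2 ⟨c, hc⟩
      have h2 : IsConj u w := isConj_iff.2 ⟨g, by rw [hu]; group⟩
      exact h1.symm.trans (h2.trans (show IsConj d w from hB).symm)
    · intro h0
      obtain ⟨P0, -, -, huniq, -⟩ := h4 w hB
      have h1 := huniq P' hP' hwP'
      have h2 : cj (g * c⁻¹) EJ = P0 := by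
        apply huniq _ ⟨_, rfl⟩
        rw [mem_cj]
        have : (g * c⁻¹)⁻¹ * w * (g * c⁻¹) = c * u * c⁻¹ := by rw [hu]; group
        rw [this, hc]
        exact Cfsg.Agent.J4.Invol.d_mem inj
      have h3 : g * z * g⁻¹ ∈ cj g EJ ⊓ P' := by
        refine ⟨mem_cj.2 ?_, ?_⟩
        · have : g⁻¹ * (g * z * g⁻¹) * g = z := by group
          rwa [this]
        · rw [h1, ← h2]
          apply mem_cj.2
          have : (g * c⁻¹)⁻¹ * (g * z * g⁻¹) * (g * c⁻¹) = c * z * c⁻¹ := by group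
          rwa [this]
      rw [h0, Subgroup.mem_bot] at h3
      apply hz1
      have : z = g⁻¹ * (g * z * g⁻¹) * g := by group
      rw [this, h3]; group

end Cfsg.Agent.H541.JM.F13
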