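import Cfsg.Agent.J4.Classes

/-!
# Representatives of the 2B elements of `N(V)` outside `V` (`V = 2^11` in `J4`): data and kernel check

For each representative `u = β(v) m` (`m` an involution of `M24`) of class 2B the element `g = p w⁻¹` satisfies
`u = g β(5) g⁻¹` (equations `eqsC`) and `β(a) g = g β(b)` (equations `eqsF`).
-/

set_option autoImplicit false

namespace Cfsg.Agent.H541.JM.F13Data

open Cfsg Cfsg.Agent.Lib Cfsg.Agent.Lib.F2MatGroup Cfsg.Agent.J4.Rep112 Cfsg.Agent.J4.Lower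
open Cfsg.Agent.J4.LowerData Cfsg.Agent.J4.GroupLemmas Cfsg.Agent.J4.Beta
open Cfsg.Agent.J4.ClassesData Cfsg.Agent.J4.M24Hom Cfsg.Agent.J4.ClassesAbs Cfsg.Agent.J4.Classes
open Cfsg.Agent.J4.M24InvolData Cfsg.Agent.SporadicStructure.M24El

/-- equations `β(a) p w⁻¹ = p w⁻¹ β(b)` -/
def eqsF : List (List ℕ × List ℕ) := [
  ([43, 44, 50, 32, 58, 56, 55, 57], [32, 58, 56, 55, 57, 45, 47, 49, 52]),
  ([45, 48, 49, 50, 28, 58, 56, 58], [28, 58, 56, 58, 43, 46, 47, 50, 51, 52]),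
  ([42, 47, 50, 51, 24, 57, 58, 55, 57], [24, 57, 58, 55, 57, 42, 47, 52]),
  ([43, 44, 50, 20, 57, 58, 56], [20, 57, 58, 56, 44, 45, 47, 51, 52]),
  ([43, 44, 50, 16, 58, 56, 58], [16, 58, 56, 58, 42, 44, 45, 47]),
  ([42, 46, 47, 48, 50, 12, 58, 57, 58, 57, 58, 56], [12, 58, 57, 58, 57, 58, 56, 43, 45, 46, 50]),
  ([43, 44, 45, 48, 49, 8, 58], [8, 58, 43, 44, 48, 49, 51]),
  ([44, 46, 4, 55, 56, 58, 56, 58], [4, 55, 56, 58, 56, 58, 42, 43, 45, 48, 49, 51, 52])]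

/-- (type, v, index of u, index of p, word of `w⁻¹`, word of `w`, a, b) -/
def repsF : List (ℕ × ℕ × ℕ × ℕ × List ℕ × List ℕ × ℕ × ℕ) := [
  (1, 34, 35, 32, [58, 56, 55, 57], [56, 55, 57, 58], 262, 1192),
  (1, 517, 31, 28, [58, 56, 58], [58, 57, 58], 456, 1842),
  (1, 551, 27, 24, [57, 58, 55, 57], [56, 55, 58, 56], 801, 1057),
  (1, 1047, 23, 20, [57, 58, 56], [57, 58, 56], 262, 1580),
  (1, 1077, 19, 16, [58, 56, 58], [58, 57, 58], 262, 45),
  (1, 1554, 15, 12, [58, 57, 58, 57, 58, 56], [57, 58, 56, 58, 56, 58], 369, 282),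
  (1, 1584, 11, 8, [58], [58], 206, 710),
  (2, 0, 7, 4, [55, 56, 58, 56, 58], [58, 57, 58, 57, 55], 20, 1739)]

theorem checkF : check 112 codes (slpQ ++ slpC) eqsF [] = true := by decide +kernel

theorem eqF : ∀ p ∈ eqsF, evG LC p.1 = evG LC p.2 := by
  have h := (check_sound (n := 112) (by norm_num) codes_gens checkF).1
  rw [runG_append] at h
  exact h

/-- check of a representative -/
def repOkF (E E' : List (List ℕ × List ℕ)) (im v : ℕ)
    (r : ℕ × ℕ × ℕ × ℕ × List ℕ × List ℕ × ℕ × ℕ) : Bool :=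
  E.contains ([r.2.2.1], bw 11 42 v ++ [im]) &&
    E.contains ([r.2.2.1, r.2.2.2.1], [r.2.2.2.1] ++ r.2.2.2.2.1 ++ [40] ++ r.2.2.2.2.2.1) &&
    E.contains (r.2.2.2.2.1 ++ r.2.2.2.2.2.1, []) &&
    E'.contains (bw 11 42 r.2.2.2.2.2.2.1 ++ [r.2.2.2.1] ++ r.2.2.2.2.1,
      [r.2.2.2.1] ++ r.2.2.2.2.1 ++ bw 11 42 r.2.2.2.2.2.2.2) &&
    Nat.blt 0 r.2.2.2.2.2.2.1 && Nat.blt r.2.2.2.2.2.2.1 2048

/-- `u` is conjugate to `β(1024)`, or to `β(5)` by an element `g` with `β(a)^g = β(b)`, `a ≠ 0` -/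
def GoodF {G : Type*} [Group G] (l : List G) (R : Subgroup G) (u : G) : Prop :=
  (∃ g ∈ R, g * u * g⁻¹ = beta l 1024) ∨
    ∃ g ∈ R, g * u * g⁻¹ = beta l 5 ∧ ∃ z ∈ Subgroup.closure {q | q ∈ l}, z ≠ 1 ∧
      g * z * g⁻¹ ∈ Subgroup.closure {q | q ∈ l}

section Abs

variable {G : Type*} [Group G] {L l : List G}

theorem goodF_of_conj {R : Subgroup G} {u : G} {n : G} (hn : n ∈ R)
    (hn2 : n ∈ Subgroup.normalizer ((Subgroup.closure {q | q ∈ l} : Subgroup G) : Set G))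
    (h : GoodF l R (n * u * n⁻¹)) : GoodF l R u := by
  rcases h with ⟨g, hg, h1⟩ | ⟨g, hg, h1, z, hz, hz1, h2⟩
  · refine Or.inl ⟨g * n, R.mul_mem hg hn, ?_⟩
    rw [← h1]; group
  · refine Or.inr ⟨g * n, R.mul_mem hg hn, ?_, n⁻¹ * z * n, ?_, ?_, ?_⟩
    · rw [← h1]; group
    · have h3 := (Subgroup.mem_normalizer_iff.1 (Subgroup.inv_mem _ hn2) z).1 hz
      rwa [inv_inv] at h3
    · intro h3
      apply hz1
      calc z = n * (n⁻¹ * z * n) * n⁻¹ := by group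
        _ = 1 := by rw [h3]; group
    · have e : g * n * (n⁻¹ * z * n) * (g * n)⁻¹ = g * z * g⁻¹ := by group
      rwa [e]

theorem abs_repF (hl : l.length = 11) (hL : ∀ k < 11, getG L (42 + k) = l.getD k 1)
    (hsq : ∀ q ∈ l, q * q = 1) (hcomm : ∀ a ∈ l, ∀ b ∈ l, a * b = b * a) (hind : Ind l)
    {R : Subgroup G} (hR : ∀ g ∈ L, g ∈ R)
    {E E' : List (List ℕ × List ℕ)} (hE : ∀ p ∈ E, evG L p.1 = evG L p.2)
    (hE' : ∀ p ∈ E', evG L p.1 = evG L p.2) (hD : getG L 40 = beta l 5)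
    {im v : ℕ} {r : ℕ × ℕ × ℕ × ℕ × List ℕ × List ℕ × ℕ × ℕ} (h : repOkF E E' im v r = true) :
    GoodF l R (beta l v * getG L im) := by
  unfold repOkF at h
  rw [Bool.and_eq_true, Bool.and_eq_true, Bool.and_eq_true, Bool.and_eq_true, Bool.and_eq_true,
    List.contains_iff_mem, List.contains_iff_mem, List.contains_iff_mem, List.contains_iff_mem,
    Nat.blt_eq, Nat.blt_eq] at h
  obtain ⟨⟨⟨⟨⟨h1, h2⟩, h3⟩, h4⟩, h5⟩, h6⟩ := h
  have e1 := hE _ h1
  have e2 := hE _ h2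
  have e3 := hE _ h3
  have e4 := hE' _ h4
  simp only [evG_append, evG_single, abs_bw hl hL] at e1
  simp only [evG_append, evG_single, evG_cons, evG_nil, mul_one] at e2
  simp only [evG_append, evG_nil] at e3
  simp only [evG_append, evG_single, evG_cons, evG_nil, mul_one, abs_bw hl hL] at e4
  rw [← e1]
  have hu : getG L r.2.2.1 ∈ R := getG_mem R hR _
  have hp : getG L r.2.2.2.1 ∈ R := getG_mem R hR _
  have hw : evG L r.2.2.2.2.2.1 ∈ R := evG_mem R hR _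
  have hw' : evG L r.2.2.2.2.1 = (evG L r.2.2.2.2.2.1)⁻¹ := eq_inv_of_mul_eq_one_left e3
  rw [hw'] at e2 e4
  generalize getG L r.2.2.1 = u at *
  generalize getG L r.2.2.2.1 = p at *
  generalize evG L r.2.2.2.2.2.1 = w at *
  have hmem : ∀ v, beta l v ∈ Subgroup.closure {q | q ∈ l} := fun v =>
    beta_mem _ l (fun a ha => Subgroup.subset_closure ha) v
  refine Or.inr ⟨w * p⁻¹, R.mul_mem hw (R.inv_mem hp), ?_, beta l r.2.2.2.2.2.2.1, hmem _, ?_, ?_⟩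
  · rw [← hD]
    have : w * p⁻¹ * u * (w * p⁻¹)⁻¹ = w * p⁻¹ * (u * p) * w⁻¹ := by group
    rw [this, e2]; group
  · intro h0
    have h7 : r.2.2.2.2.2.2.1 = 0 := by
      refine beta_inj hsq hcomm hind ?_ ?_ (h0.trans (beta_zero l).symm)
      · rw [hl]; exact h6
      · rw [hl]; norm_num
    omega
  · have : w * p⁻¹ * beta l r.2.2.2.2.2.2.1 * (w * p⁻¹)⁻¹ =
        w * p⁻¹ * (beta l r.2.2.2.2.2.2.1 * p * w⁻¹) := by group
    rw [this, e4]
    have e5 : w * p⁻¹ * (p * w⁻¹ * beta l r.2.2.2.2.2.2.2) = beta l r.2.2.2.2.2.2.2 := by group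
    rw [e5]
    exact hmem _

end Abs

theorem repsFok1 : ([34, 517, 551, 1047, 1077, 1554, 1584].all fun v =>
    repsF.any fun r => repOkF eqsC eqsF 41 v r) = true := by decide +kernel
theorem repsFok2 : ([0].all fun v => repsF.any fun r => repOkF eqsC eqsF 55 v r) = true := by
  decide +kernel
theorem repsAok1 : ([0].all fun v => reps.any fun r =>
    Nat.beq r.2.2.2.2.2.2 52 && repOk eqsC 41 v r) = true := by decide +kernel
theorem repsAok2 : ([5].all fun v => reps.any fun r =>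
    Nat.beq r.2.2.2.2.2.2 52 && repOk eqsC 55 v r) = true := by
  decide +kernel

end Cfsg.Agent.H541.JM.F13Data
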